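import Mathlib

/-!
# Conjugacy of elements of prime order when the Sylow subgroup has prime order
-/

set_option autoImplicit false

namespace Cfsg.Agent.H426

/-- If `p` exactly divides the order of the group then any element of order `p` is conjugate to a
power of any other one. -/
theorem conj_of_orderOf_eq_prime {G : Type*} [Group G] [Finite G] {p m : ℕ} (hp : p.Prime)
    (hm : ¬ p ∣ m) (hG : Nat.card G = p * m) {g h : G} (hg : orderOf g = p) (hh : orderOf h = p) :
    ∃ b : G, ∃ k : ℕ, h = b * g ^ k * b⁻¹ := by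
  have : Fact p.Prime := ⟨hp⟩
  have hfac : (Nat.card G).factorization p = 1 := by
    have hm0 : m ≠ 0 := by rintro rfl; exact hm (dvd_zero _)
    rw [hG, Nat.factorization_mul hp.ne_zero hm0, Finsupp.add_apply, hp.factorization_self,
      Nat.factorization_eq_zero_of_not_dvd hm]
  have key : ∀ x : G, orderOf x = p → Nat.card (Subgroup.zpowers x) =
      p ^ (Nat.card G).factorization p := by
    intro x hx
    rw [hfac, pow_one, Nat.card_zpowers, hx]
  let P : Sylow p G := Sylow.ofCard (Subgroup.zpowers g) (key g hg)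
  let Q : Sylow p G := Sylow.ofCard (Subgroup.zpowers h) (key h hh)
  obtain ⟨b, hb⟩ := MulAction.exists_smul_eq G P Q
  have h1 : h ∈ (Q : Subgroup G) := by
    change h ∈ Subgroup.zpowers h
    exact Subgroup.mem_zpowers h
  rw [← hb, Sylow.coe_subgroup_smul, Subgroup.mem_pointwise_smul_iff_inv_smul_mem] at h1
  have h2 : b⁻¹ * h * b ∈ Subgroup.zpowers g := by
    have e : (MulAut.conj b)⁻¹ • h = b⁻¹ * h * b := by
      rw [← map_inv, MulAut.smul_def, MulAut.conj_apply, inv_inv]
    rw [e] at h1
    exact h1
  obtain ⟨k, hk⟩ := (mem_powers_iff_mem_zpowers (x := g)).2 h2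
  refine ⟨b, k, ?_⟩
  have hk' : g ^ k = b⁻¹ * h * b := hk
  rw [hk']
  group

end Cfsg.Agent.H426
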