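import Mathlib
import Cfsg.Prelude.Def_Sz
import Cfsg.Agent.LieRecognition.SzMatrix
import Cfsg.Agent.H426.Unrec

/-!
# Elements of `Sz(q)` with a nonzero fixed vector on the natural module are 2-elements
-/

set_option autoImplicit false

namespace Cfsg.Agent.H426.SzFix

open scoped Matrix
open Cfsg.Agent.LieRecognition.SzMatrix

variable {F : Type*} [Field F] {θ : F →+* F} {e : ℕ}

/-- the shape of `g + g⁻¹` -/
def hm (a b x y z w : F) : Matrix (Fin 4) (Fin 4) F :=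
  !![a, x, y, 0; z, b, 0, y; w, 0, b, x; 0, w, z, a]

/-- `g + g⁻¹` satisfies a quadratic equation -/
theorem quad (h0 : (2 : F) = 0) (a b x y z w : F) :
    hm a b x y z w * hm a b x y z w + (a + b) • hm a b x y z w
      + (a * b + x * z + y * w) • (1 : Matrix (Fin 4) (Fin 4) F) = 0 := by
  ext i j
  fin_cases i <;> fin_cases j <;>
    simp [hm]
  · linear_combination (a * a + a * b + x * z + y * w) * h0
  · linear_combination (a * x + b * x) * h0
  · linear_combination (a * y + b * y) * h0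
  · linear_combination (x * y) * h0
  · linear_combination (a * z + b * z) * h0
  · linear_combination (b * b + a * b + x * z + y * w) * h0
  · linear_combination (z * y) * h0
  · linear_combination (a * y + b * y) * h0
  · linear_combination (a * w + b * w) * h0
  · linear_combination (x * w) * h0
  · linear_combination (b * b + a * b + x * z + y * w) * h0
  · linear_combination (a * x + b * x) * h0
  · linear_combination (z * w) * h0
  · linear_combination (a * w + b * w) * h0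
  · linear_combination (a * z + b * z) * h0
  · linear_combination (a * a + a * b + x * z + y * w) * h0

theorem inv_val {g : GL (Fin 4) F} (hg : g ∈ Cfsg.Lie.Sp4 F) :
    (g⁻¹ : GL (Fin 4) F).1 = !![g.1 3 3, g.1 2 3, g.1 1 3, g.1 0 3; g.1 3 2, g.1 2 2, g.1 1 2, g.1 0 2;
      g.1 3 1, g.1 2 1, g.1 1 1, g.1 0 1; g.1 3 0, g.1 2 0, g.1 1 0, g.1 0 0] := by
  have h1 : !![g.1 3 3, g.1 2 3, g.1 1 3, g.1 0 3; g.1 3 2, g.1 2 2, g.1 1 2, g.1 0 2;
      g.1 3 1, g.1 2 1, g.1 1 1, g.1 0 1; g.1 3 0, g.1 2 0, g.1 1 0, g.1 0 0] * g.1 = 1 := by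
    have hc := col_rel hg
    ext i j
    have h := hc (3 - i) j
    rw [Matrix.mul_apply, Fin.sum_univ_four]
    fin_cases i <;> fin_cases j <;> simp [J] at h ⊢ <;> linear_combination h
  calc (g⁻¹ : GL (Fin 4) F).1 = 1 * (g⁻¹ : GL (Fin 4) F).1 := by rw [Matrix.one_mul]
    _ = (_ * g.1) * (g⁻¹ : GL (Fin 4) F).1 := by rw [h1]
    _ = _ := by rw [Matrix.mul_assoc, ← Units.val_mul, mul_inv_cancel, Units.val_one, Matrix.mul_one]

/-- **An element of `Sz(q)` with a nonzero fixed vector satisfies `g ^ 4 = 1`.** -/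
theorem pow_four (H : Good F θ e) {g : GL (Fin 4) F} (hg : g ∈ Cfsg.Lie.Sz F e) {v : Fin 4 → F}
    (hv : v ≠ 0) (hgv : g.1 *ᵥ v = v) : g ^ 4 = 1 := by
  have h0 := H.two
  have hsp := (H.mem_Sz.1 hg).1
  have hst := (H.mem_Sz.1 hg).2
  have hinv := inv_val hsp
  set a := g.1 0 0 + g.1 3 3 with ha
  set b := g.1 1 1 + g.1 2 2 with hb
  set x := g.1 0 1 + g.1 2 3 with hx
  set y := g.1 0 2 + g.1 1 3 with hy
  set z := g.1 1 0 + g.1 3 2 with hz
  set w := g.1 2 0 + g.1 3 1 with hw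
  have hh : g.1 + (g⁻¹ : GL (Fin 4) F).1 = hm a b x y z w := by
    rw [hinv]
    ext i j
    fin_cases i <;> fin_cases j <;> simp [hm, ha, hb, hx, hy, hz, hw]
    all_goals first
      | ring1
      | (rw [← two_mul, h0, zero_mul])
  -- the coefficient
  have hco : a * b + x * z + y * w = θ (a + b) := by
    have e1 := congrFun (congrFun hst 0) 0
    have e2 := congrFun (congrFun hst 1) 1
    have e3 := congrFun (congrFun hst 2) 2
    have e4 := congrFun (congrFun hst 3) 3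
    rw [star4_explicit] at e1 e2 e3 e4
    simp at e1 e2 e3 e4
    have c := col_rel hsp 0 3
    have r := row_rel hsp 0 3
    simp [J] at c r
    have : θ (a + b) = θ (g.1 0 0) + θ (g.1 1 1) + θ (g.1 2 2) + θ (g.1 3 3) := by
      rw [ha, hb]; simp only [map_add]; ring
    rw [this, ← e1, ← e2, ← e3, ← e4, ha, hb, hx, hy, hz, hw]
    linear_combination c + r + (g.1 0 1 * g.1 1 0 + g.1 0 2 * g.1 2 0 + g.1 1 3 * g.1 3 1 + g.1 2 3 * g.1 3 2
      - g.1 0 0 * g.1 3 3 - g.1 0 3 * g.1 3 0 + 1) * h0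
  have hq := quad h0 a b x y z w
  have hxx : ∀ t : F, t + t = 0 := fun t => by rw [← two_mul, h0, zero_mul]
  have hginv : (g⁻¹ : GL (Fin 4) F).1 *ᵥ v = v := by
    calc (g⁻¹ : GL (Fin 4) F).1 *ᵥ v = (g⁻¹ : GL (Fin 4) F).1 *ᵥ (g.1 *ᵥ v) := by rw [hgv]
      _ = v := by rw [Matrix.mulVec_mulVec, ← Units.val_mul, inv_mul_cancel, Units.val_one,
        Matrix.one_mulVec]
  have hhv : hm a b x y z w *ᵥ v = 0 := by
    rw [← hh, Matrix.add_mulVec, hgv, hginv]
    funext i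
    exact hxx _
  have hzero : (a * b + x * z + y * w) • v = 0 := by
    have h1 := congrArg (fun M : Matrix (Fin 4) (Fin 4) F => M *ᵥ v) hq
    simp only [Matrix.add_mulVec, Matrix.smul_mulVec, ← Matrix.mulVec_mulVec, hhv,
      Matrix.mulVec_zero, smul_zero, zero_add, Matrix.one_mulVec, Matrix.zero_mulVec] at h1
    exact h1
  have hc0 : a * b + x * z + y * w = 0 := (smul_eq_zero.1 hzero).resolve_right hv
  have hab : a + b = 0 := by
    rw [hco] at hc0
    exact (map_eq_zero θ).1 hc0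
  rw [hc0, hab, zero_smul, zero_smul, add_zero, add_zero, ← hh] at hq
  have hcomm : g.1 * (g⁻¹ : GL (Fin 4) F).1 = 1 := by
    rw [← Units.val_mul, mul_inv_cancel, Units.val_one]
  have hcomm' : (g⁻¹ : GL (Fin 4) F).1 * g.1 = 1 := by
    rw [← Units.val_mul, inv_mul_cancel, Units.val_one]
  have hMM : ∀ M : Matrix (Fin 4) (Fin 4) F, M + M = 0 := fun M => by
    ext i j
    exact hxx _
  have h2 : g.1 * g.1 + (g⁻¹ : GL (Fin 4) F).1 * (g⁻¹ : GL (Fin 4) F).1 = 0 := by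
    have h3 : (g.1 + (g⁻¹ : GL (Fin 4) F).1) * (g.1 + (g⁻¹ : GL (Fin 4) F).1)
        = g.1 * g.1 + (g⁻¹ : GL (Fin 4) F).1 * (g⁻¹ : GL (Fin 4) F).1 + (1 + 1) := by
      rw [Matrix.add_mul, Matrix.mul_add, Matrix.mul_add, hcomm, hcomm']
      abel
    rw [h3, hMM, add_zero] at hq
    exact hq
  have h4 : g.1 * g.1 = (g⁻¹ : GL (Fin 4) F).1 * (g⁻¹ : GL (Fin 4) F).1 := by
    have h5 := hMM ((g⁻¹ : GL (Fin 4) F).1 * (g⁻¹ : GL (Fin 4) F).1)
    have h6 : g.1 * g.1 + (g⁻¹ : GL (Fin 4) F).1 * (g⁻¹ : GL (Fin 4) F).1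
      = (g⁻¹ : GL (Fin 4) F).1 * (g⁻¹ : GL (Fin 4) F).1
        + (g⁻¹ : GL (Fin 4) F).1 * (g⁻¹ : GL (Fin 4) F).1 := by rw [h2, h5]
    exact add_right_cancel h6
  have h7 : g * g = g⁻¹ * g⁻¹ := by
    apply Units.ext
    rw [Units.val_mul, Units.val_mul]
    exact h4
  calc g ^ 4 = (g * g) * (g * g) := by
        rw [pow_succ, pow_succ, pow_two]; simp only [mul_assoc]
    _ = (g⁻¹ * g⁻¹) * (g * g) := by nth_rewrite 1 [h7]; rfl
    _ = 1 := by group

/-- the natural action of `Sz(q)` on `F ^ 4` -/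
@[reducible] noncomputable def natAct (F : Type*) [Field F] (e : ℕ) :
    DistribMulAction ↥(Cfsg.Lie.Sz F e) (Fin 4 → F) where
  smul g v := g.1.1 *ᵥ v
  one_smul v := by
    change ((1 : GL (Fin 4) F) : Matrix (Fin 4) (Fin 4) F) *ᵥ v = v
    rw [Units.val_one, Matrix.one_mulVec]
  mul_smul g h v := by
    change ((g.1 * h.1 : GL (Fin 4) F) : Matrix (Fin 4) (Fin 4) F) *ᵥ v = g.1.1 *ᵥ (h.1.1 *ᵥ v)
    rw [Units.val_mul, Matrix.mulVec_mulVec]
  smul_zero g := Matrix.mulVec_zero _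
  smul_add g v w := Matrix.mulVec_add _ v w

/-- groups of unbounded order with the prime graph of `Sz(q)` -/
theorem exists_large [Finite F] (H : Good F θ e) (h2 : 2 ∣ Nat.card ↥(Cfsg.Lie.Sz F e)) (N : ℕ) :
    ∃ (K : Type) (_ : Group K) (_ : Finite K), N < Nat.card K ∧
      ((∀ q : ℕ, q.Prime → (q ∣ Nat.card ↥(Cfsg.Lie.Sz F e) ↔ q ∣ Nat.card K)) ∧
      (∀ q r : ℕ, q.Prime → r.Prime → q ≠ r →
        ((∃ g : ↥(Cfsg.Lie.Sz F e), orderOf g = q * r) ↔ (∃ g : K, orderOf g = q * r)))) := by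
  let _ := natAct F e
  refine Cfsg.Agent.H426.exists_large_same_primeGraph (G := ↥(Cfsg.Lie.Sz F e))
    (V := Fin 4 → F) Nat.prime_two ?_ h2 ?_ N
  · intro v
    funext i
    rw [two_nsmul, Pi.add_apply, ← two_mul, H.two, zero_mul]
    rfl
  · intro r hr hr2 g v hg hv hgv
    exfalso
    have h1 : g.1 ^ 4 = 1 := pow_four H g.2 hv hgv
    have h3 : g ^ 4 = 1 := Subtype.ext h1
    have h4 : r ∣ 2 ^ 2 := by
      rw [← hg]
      exact orderOf_dvd_of_pow_eq_one h3
    exact hr2 ((Nat.prime_dvd_prime_iff_eq hr Nat.prime_two).1 (hr.dvd_of_dvd_pow h4))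

end Cfsg.Agent.H426.SzFix
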