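import Mathlib
import Cfsg.Agent.H426.F16
import Cfsg.Agent.LieClassical.HermBasic

/-!
# Codes for vectors of the 3-dimensional unitary space over the field with 16 elements
-/

set_option autoImplicit false

namespace Cfsg.Agent.H426.U34

open K16

/-- vectors -/
abbrev Vec : Type := Fin 3 → K16

/-- the hermitian form -/
abbrev hf (u v : Vec) : K16 := Cfsg.hermForm 3 K16 4 u v

theorem hf_def (u v : Vec) : hf u v = u 0 * v 0 ^ 4 + u 1 * v 1 ^ 4 + u 2 * v 2 ^ 4 := by
  rw [hf, Cfsg.hermForm, Fin.sum_univ_three]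

/-- the vector with a given code (modulo 4096) -/
def vec (n : ℕ) : Vec := ![of n, of (n / 16), of (n / 256)]

/-- the code of a vector -/
def cd (x : Vec) : ℕ := (x 0).code + 16 * (x 1).code + 256 * (x 2).code

theorem of_eq_of_mod {a b : ℕ} (h : a % 16 = b % 16) : of a = of b := by
  apply ext'
  rw [code_of, code_of, h]

theorem cd_lt (x : Vec) : cd x < 4096 := by
  have h0 := (x 0).code_lt
  have h1 := (x 1).code_lt
  have h2 := (x 2).code_lt
  unfold cd
  omega

theorem vec_cd (x : Vec) : vec (cd x) = x := by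
  have h0 := (x 0).code_lt
  have h1 := (x 1).code_lt
  have h2 := (x 2).code_lt
  funext i
  fin_cases i
  · change of (cd x) = x 0
    rw [← of_code (x 0)]
    apply of_eq_of_mod
    unfold cd
    omega
  · change of (cd x / 16) = x 1
    rw [← of_code (x 1)]
    apply of_eq_of_mod
    unfold cd
    omega
  · change of (cd x / 256) = x 2
    rw [← of_code (x 2)]
    apply of_eq_of_mod
    unfold cd
    omega

theorem of_xor (a b : ℕ) : of (a ^^^ b) = of a + of b := by
  rw [add_def, code_of, code_of]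
  apply of_eq_of_mod
  have h : ∀ c : ℕ, c % 16 = c % 2 ^ 4 := fun c => by norm_num
  rw [h, h, h, h, Nat.xor_mod_two_pow, Nat.xor_mod_two_pow, Nat.mod_mod, Nat.mod_mod]

theorem of_mul (a b : ℕ) : of (mulN (a % 16) (b % 16)) = of a * of b := by
  rw [mul_def, code_of, code_of]

/-- table of fourth powers -/
def P4T : ℕ := 0x89badcef76452310

/-- the fourth power of codes -/
def p4N (a : ℕ) : ℕ := (P4T >>> (4 * a)) % 16

theorem of_p4' : ∀ x : K16, of (p4N x.code) = x * x * (x * x) := by decide +kernel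

theorem of_p4 (a : ℕ) : of (p4N (a % 16)) = of a ^ 4 := by
  rw [← code_of, of_p4']
  ring

theorem p4N_lt (a : ℕ) : p4N a < 16 := Nat.mod_lt _ (by norm_num)
theorem mulN_lt (a b : ℕ) : mulN a b < 16 := Nat.mod_lt _ (by norm_num)

/-- the form on codes -/
def hN (m n : ℕ) : ℕ :=
  (mulN (m % 16) (p4N (n % 16)) ^^^ (mulN (m / 16 % 16) (p4N (n / 16 % 16)) ^^^
    mulN (m / 256 % 16) (p4N (n / 256 % 16)))) % 16

theorem of_mod (a : ℕ) : of (a % 16) = of a := of_eq_of_mod (Nat.mod_mod _ _)

theorem of_mul' (a b : ℕ) : of (mulN (a % 16) (p4N (b % 16))) = of a * of b ^ 4 := by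
  have h : p4N (b % 16) = p4N (b % 16) % 16 := (Nat.mod_eq_of_lt (p4N_lt _)).symm
  rw [h, of_mul, of_p4]

theorem of_hN (m n : ℕ) : of (hN m n) = hf (vec m) (vec n) := by
  rw [hf_def, hN, of_mod, of_xor, of_xor, of_mul', of_mul', of_mul', ← add_assoc]
  rfl

theorem hN_lt (m n : ℕ) : hN m n < 16 := Nat.mod_lt _ (by norm_num)

theorem of_eq_zero {a : ℕ} (ha : a < 16) : of a = 0 ↔ a = 0 := by
  constructor
  · intro h
    have h1 : (of a).code = (0 : K16).code := by rw [h]
    rw [code_of, Nat.mod_eq_of_lt ha] at h1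
    exact h1
  · rintro rfl; rfl

theorem hN_eq_zero (m n : ℕ) : hN m n = 0 ↔ hf (vec m) (vec n) = 0 := by
  rw [← of_hN, of_eq_zero (hN_lt m n)]

theorem vec_xor (m n : ℕ) : vec (m ^^^ n) = vec m + vec n := by
  have h : ∀ k : ℕ, (m ^^^ n) / 2 ^ k = (m / 2 ^ k) ^^^ (n / 2 ^ k) := by
    intro k
    rw [← Nat.shiftRight_eq_div_pow, ← Nat.shiftRight_eq_div_pow, ← Nat.shiftRight_eq_div_pow,
      Nat.shiftRight_xor_distrib]
  have h4 : (m ^^^ n) / 16 = (m / 16) ^^^ (n / 16) := h 4
  have h8 : (m ^^^ n) / 256 = (m / 256) ^^^ (n / 256) := h 8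
  funext i
  fin_cases i
  · exact of_xor m n
  · change of ((m ^^^ n) / 16) = of (m / 16) + of (n / 16)
    rw [← of_xor, h4]
  · change of ((m ^^^ n) / 256) = of (m / 256) + of (n / 256)
    rw [← of_xor, h8]

/-- scalar multiplication on codes -/
def smN (c n : ℕ) : ℕ :=
  mulN c (n % 16) + 16 * mulN c (n / 16 % 16) + 256 * mulN c (n / 256 % 16)

theorem vec_smN {c : ℕ} (hc : c < 16) (n : ℕ) : vec (smN c n) = of c • vec n := by
  have h0 := mulN_lt c (n % 16)
  have h1 := mulN_lt c (n / 16 % 16)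
  have h2 := mulN_lt c (n / 256 % 16)
  have hc' : c = c % 16 := (Nat.mod_eq_of_lt hc).symm
  funext i
  fin_cases i
  · change of (smN c n) = of c * of n
    rw [← of_mul, ← hc']
    apply of_eq_of_mod
    unfold smN
    omega
  · change of (smN c n / 16) = of c * of (n / 16)
    rw [← of_mul, ← hc']
    apply of_eq_of_mod
    unfold smN
    omega
  · change of (smN c n / 256) = of c * of (n / 256)
    rw [← of_mul, ← hc']
    apply of_eq_of_mod
    unfold smN
    omega

theorem smN_lt (c n : ℕ) : smN c n < 4096 := by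
  have h0 := mulN_lt c (n % 16)
  have h1 := mulN_lt c (n / 16 % 16)
  have h2 := mulN_lt c (n / 256 % 16)
  unfold smN
  omega

theorem vec_zero : vec 0 = 0 := by
  funext i
  fin_cases i <;> rfl

theorem vec_inj {m n : ℕ} (hm : m < 4096) (hn : n < 4096) (h : vec m = vec n) : m = n := by
  have h0 : (vec m 0).code = (vec n 0).code := by rw [h]
  have h1 : (vec m 1).code = (vec n 1).code := by rw [h]
  have h2 : (vec m 2).code = (vec n 2).code := by rw [h]
  change m % 16 = n % 16 at h0
  change m / 16 % 16 = n / 16 % 16 at h1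
  change m / 256 % 16 = n / 256 % 16 at h2
  omega

/-- isotropic vectors -/
def Iso (x : Vec) : Prop := x ≠ 0 ∧ hf x x = 0

/-- isotropic codes -/
def isoN (n : ℕ) : Bool := !(n.beq 0) && (hN n n).beq 0

theorem isoN_iff {n : ℕ} (hn : n < 4096) : isoN n = true ↔ Iso (vec n) := by
  unfold isoN Iso
  rw [Bool.and_eq_true, Bool.not_eq_true', ← hN_eq_zero, Nat.beq_eq]
  constructor
  · rintro ⟨h1, h2⟩
    refine ⟨fun h => ?_, h2⟩
    have h3 : n = 0 := vec_inj hn (by norm_num) (by rw [h, vec_zero])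
    rw [h3] at h1
    exact absurd h1 (by decide)
  · rintro ⟨h1, h2⟩
    refine ⟨?_, h2⟩
    by_contra h3
    rw [Bool.not_eq_false, Nat.beq_eq] at h3
    exact h1 (by rw [h3, vec_zero])

end Cfsg.Agent.H426.U34
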