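import Mathlib
import Cfsg.Agent.H426.U34Code

/-!
# A module in characteristic 5 for the 3-dimensional unitary group over the field with 16 elements

The elements are the functions `Φ` on pairs of isotropic vectors, `Φ x y + Φ y z = Φ x z`, not
depending on scalars, such that the sum over each hyperbolic line is zero.
-/

set_option autoImplicit false

namespace Cfsg.Agent.H426.U34

open K16 Matrix

/-- the group -/
abbrev UG : Type := ↥(Cfsg.SU 3 K16 4)

/-- the action on vectors -/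
def mv (g : UG) (x : Vec) : Vec := (g.1 : Matrix (Fin 3) (Fin 3) K16) *ᵥ x

theorem mv_one (x : Vec) : mv 1 x = x := by
  unfold mv
  exact Matrix.one_mulVec x

theorem mv_mul (g h : UG) (x : Vec) : mv (g * h) x = mv g (mv h x) := by
  unfold mv
  rw [Matrix.mulVec_mulVec]
  rfl

theorem mv_inv_mv (g : UG) (x : Vec) : mv g⁻¹ (mv g x) = x := by
  rw [← mv_mul, inv_mul_cancel, mv_one]

theorem mv_mv_inv (g : UG) (x : Vec) : mv g (mv g⁻¹ x) = x := by
  rw [← mv_mul, mul_inv_cancel, mv_one]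

theorem mv_smul (g : UG) (c : K16) (x : Vec) : mv g (c • x) = c • mv g x :=
  Matrix.mulVec_smul _ _ _

theorem mv_add (g : UG) (x y : Vec) : mv g (x + y) = mv g x + mv g y :=
  Matrix.mulVec_add _ _ _

theorem mv_zero (g : UG) : mv g 0 = 0 := Matrix.mulVec_zero _

theorem hf_mv (g : UG) (x y : Vec) : hf (mv g x) (mv g y) = hf x y := g.2 x y

theorem mv_eq_zero (g : UG) (x : Vec) : mv g x = 0 ↔ x = 0 := by
  constructor
  · intro h
    rw [← mv_inv_mv g x, h, mv_zero]
  · rintro rfl; exact mv_zero g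

theorem iso_mv (g : UG) (x : Vec) : Iso (mv g x) ↔ Iso x := by
  unfold Iso
  rw [hf_mv, Ne, mv_eq_zero]

/-- the module -/
def VM : AddSubgroup (Vec → Vec → ZMod 5) where
  carrier := {Φ | (∀ x y, ¬ (Iso x ∧ Iso y) → Φ x y = 0) ∧
    (∀ x y z, Iso x → Iso y → Iso z → Φ x y + Φ y z = Φ x z) ∧
    (∀ (c : K16) x z, c ≠ 0 → Φ (c • x) z = Φ x z) ∧
    (∀ x y z, Iso x → Iso y → Iso z → hf x y ≠ 0 → Φ x z + ∑ c : K16, Φ (y + c • x) z = 0)}
  add_mem' := by
    rintro Φ Ψ ⟨h1, h2, h3, h4⟩ ⟨k1, k2, k3, k4⟩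
    refine ⟨fun x y h => ?_, fun x y z hx hy hz => ?_, fun c x z hc => ?_,
      fun x y z hx hy hz hh => ?_⟩
    · simp only [Pi.add_apply, h1 x y h, k1 x y h, add_zero]
    · simp only [Pi.add_apply, ← h2 x y z hx hy hz, ← k2 x y z hx hy hz]; abel
    · simp only [Pi.add_apply, h3 c x z hc, k3 c x z hc]
    · simp only [Pi.add_apply, Finset.sum_add_distrib]
      have e1 := h4 x y z hx hy hz hh
      have e2 := k4 x y z hx hy hz hh
      linear_combination e1 + e2
  zero_mem' := by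
    refine ⟨fun x y h => rfl, fun x y z hx hy hz => by simp, fun c x z hc => rfl,
      fun x y z hx hy hz hh => by simp⟩
  neg_mem' := by
    rintro Φ ⟨h1, h2, h3, h4⟩
    refine ⟨fun x y h => ?_, fun x y z hx hy hz => ?_, fun c x z hc => ?_,
      fun x y z hx hy hz hh => ?_⟩
    · simp only [Pi.neg_apply, h1 x y h, neg_zero]
    · simp only [Pi.neg_apply, ← h2 x y z hx hy hz]; ring
    · simp only [Pi.neg_apply, h3 c x z hc]
    · simp only [Pi.neg_apply, Finset.sum_neg_distrib]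
      have e1 := h4 x y z hx hy hz hh
      linear_combination -e1

/-- the action on functions -/
def actF (g : UG) (Φ : Vec → Vec → ZMod 5) : Vec → Vec → ZMod 5 :=
  fun x y => Φ (mv g⁻¹ x) (mv g⁻¹ y)

theorem actF_mem (g : UG) {Φ : Vec → Vec → ZMod 5} (h : Φ ∈ VM) : actF g Φ ∈ VM := by
  obtain ⟨h1, h2, h3, h4⟩ := h
  refine ⟨fun x y h => ?_, fun x y z hx hy hz => ?_, fun c x z hc => ?_,
      fun x y z hx hy hz hh => ?_⟩
  · exact h1 _ _ (fun h' => h ⟨(iso_mv _ _).1 h'.1, (iso_mv _ _).1 h'.2⟩)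
  · exact h2 _ _ _ ((iso_mv _ _).2 hx) ((iso_mv _ _).2 hy) ((iso_mv _ _).2 hz)
  · unfold actF
    rw [mv_smul]
    exact h3 _ _ _ hc
  · have e := h4 (mv g⁻¹ x) (mv g⁻¹ y) (mv g⁻¹ z) ((iso_mv _ _).2 hx) ((iso_mv _ _).2 hy)
      ((iso_mv _ _).2 hz) (by rw [hf_mv]; exact hh)
    have e2 : ∀ c : K16, actF g Φ (y + c • x) z = Φ (mv g⁻¹ y + c • mv g⁻¹ x) (mv g⁻¹ z) := by
      intro c
      unfold actF
      rw [mv_add, mv_smul]
    rw [Finset.sum_congr rfl (fun c _ => e2 c)]
    exact e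

/-- the action on the module -/
instance instAct : DistribMulAction UG ↥VM where
  smul g v := ⟨actF g v.1, actF_mem g v.2⟩
  one_smul v := by
    apply Subtype.ext
    change actF 1 v.1 = v.1
    funext x y
    unfold actF
    rw [inv_one, mv_one, mv_one]
  mul_smul g h v := by
    apply Subtype.ext
    change actF (g * h) v.1 = actF g (actF h v.1)
    funext x y
    unfold actF
    rw [_root_.mul_inv_rev, mv_mul, mv_mul]
  smul_zero g := rfl
  smul_add g v w := rfl

theorem smul_apply (g : UG) (v : ↥VM) (x y : Vec) :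
    (g • v).1 x y = v.1 (mv g⁻¹ x) (mv g⁻¹ y) := rfl

theorem five_nsmul (v : ↥VM) : 5 • v = 0 := by
  apply Subtype.ext
  funext x y
  change (5 • v.1 x y : ZMod 5) = 0
  rw [nsmul_eq_mul]
  have h : ((5 : ℕ) : ZMod 5) = 0 := by decide
  rw [h, zero_mul]

theorem ext_VM {v : ↥VM} (h : ∀ x y, Iso x → Iso y → v.1 x y = 0) : v = 0 := by
  apply Subtype.ext
  funext x y
  by_cases hxy : Iso x ∧ Iso y
  · exact h x y hxy.1 hxy.2
  · exact v.2.1 x y hxy

end Cfsg.Agent.H426.U34
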