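import Mathlib
import Cfsg.Agent.H426.U34Mod

/-!
# The module is not trivial
-/

set_option autoImplicit false

namespace Cfsg.Agent.H426.U34

open K16

/-- bounded universal quantifier -/
def allB (f : ℕ → Bool) (n : ℕ) : Bool := Nat.rec true (fun k ih => f k && ih) n

theorem allB_spec (f : ℕ → Bool) (n : ℕ) (h : allB f n = true) : ∀ i < n, f i = true := by
  induction n with
  | zero => intro i hi; omega
  | succ k ih =>
    have h1 : (f k && allB f k) = true := h
    rw [Bool.and_eq_true] at h1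
    intro i hi
    rcases Nat.lt_succ_iff_lt_or_eq.1 hi with h2 | h2
    · exact ih h1.2 i h2
    · rw [h2]; exact h1.1

/-- sums -/
def rs (f : ℕ → ℕ) (n : ℕ) : ℕ := Nat.rec 0 (fun k ih => f k + ih) n

theorem rs_eq (f : ℕ → ℕ) (n : ℕ) : rs f n = ∑ i ∈ Finset.range n, f i := by
  induction n with
  | zero => rfl
  | succ k ih =>
    rw [Finset.sum_range_succ, ← ih, Nat.add_comm (rs f k)]
    rfl

/-- the equivalence of the field with `Fin 16` -/
def eqv : K16 ≃ Fin 16 := ⟨K16.v, K16.mk, fun _ => rfl, fun _ => rfl⟩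

theorem sum_K16 {M : Type*} [AddCommMonoid M] (F : K16 → M) :
    ∑ c : K16, F c = ∑ i ∈ Finset.range 16, F (of i) := by
  rw [← Fin.sum_univ_eq_sum_range (fun i => F (of i)) 16]
  refine Fintype.sum_equiv eqv _ _ (fun c => ?_)
  change F c = F (of c.code)
  rw [of_code]

theorem cd_vec {n : ℕ} (hn : n < 4096) : cd (vec n) = n := by
  apply vec_inj (cd_lt _) hn
  rw [vec_cd]

theorem iso_iff_code (x : Vec) : Iso x ↔ isoN (cd x) = true := by
  rw [isoN_iff (cd_lt x), vec_cd]

/-- the list of normalized isotropic codes as one number; index mod 5 is the orbit of the element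
of order 13 -/
def PT : ℕ := 0xb41d410f10a10116d1b615b1eb16b16312916718017e1571b91d51241f10be19219d1c10081d612e19710c14b1521ed11019b12514313e1341e31621de1421391931a01791e715d1351741761471751261e214d1531d91361b51f01c01a10810110

/-- the entries of the list -/
def pN (i : ℕ) : ℕ := (PT >>> (12 * i)) % 4096

/-- fifth power -/
def p5N (a : ℕ) : ℕ := mulN a (p4N a)

/-- selection -/
def sel (b : Bool) (x y : ℕ) : ℕ := Bool.rec y x b

theorem sel_true (x y : ℕ) : sel true x y = x := rfl
theorem sel_false (x y : ℕ) : sel false x y = y := rfl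

/-- the function on codes -/
def f0N (n : ℕ) : ℕ :=
  sel ((n % 16).beq 0 || (n / 16 % 16).beq 0 || (n / 256 % 16).beq 0) 0
    (sel ((p5N (n / 16 % 16)).beq (mulN 6 (p5N (n % 16)))) 1
      (sel ((p5N (n / 16 % 16)).beq (mulN 7 (p5N (n % 16)))) 4 0))

/-- the inverse of the leading coordinate -/
def ldN (n : ℕ) : ℕ :=
  invN (sel ((n % 16).beq 0) (sel ((n / 16 % 16).beq 0) (n / 256 % 16) (n / 16 % 16)) (n % 16))

/-- membership in the list -/
def inPL (n : ℕ) : Bool := Nat.rec false (fun k ih => (pN k).beq n || ih) 65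

/-- first check: scaling invariance -/
def chk1 : Bool := allB (fun n => (!(isoN n)) || allB (fun c => (f0N (smN (c + 1) n)).beq (f0N n)) 15) 4096

theorem chk1_true : chk1 = true := by decide +kernel

/-- second check: normalization -/
def chk2 : Bool := allB (fun n => (!(isoN n)) ||
  ((inPL (smN (ldN n) n)) && (!((ldN n).beq 0)) && Nat.blt (ldN n) 16)) 4096

theorem chk2_true : chk2 = true := by decide +kernel

/-- the sum and the number of isotropic points -/
def sumN (m n : ℕ) : ℕ :=
  rs (fun c => sel (isoN (n ^^^ smN c m)) (1 + 100 * f0N (n ^^^ smN c m)) 0) 16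

/-- third check: sums -/
def chk3 : Bool := allB (fun i => allB (fun j =>
  (i.beq j) || (((sumN (pN i) (pN j)) % 100).beq 4 &&
    ((f0N (pN i) + sumN (pN i) (pN j) / 100) % 5).beq 0)) 65) 65

theorem chk3_true : chk3 = true := by decide +kernel

theorem inPL_spec {n : ℕ} (h : inPL n = true) : ∃ i < 65, pN i = n := by
  have key : ∀ k : ℕ, (Nat.rec false (fun k ih => (pN k).beq n || ih) k : Bool) = true →
      ∃ i < k, pN i = n := by
    intro k
    induction k with
    | zero => intro h; exact absurd h Bool.false_ne_true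
    | succ k ih =>
      intro h
      have h1 : ((pN k).beq n || (Nat.rec false (fun k ih => (pN k).beq n || ih) k : Bool)) = true := h
      rw [Bool.or_eq_true] at h1
      rcases h1 with h1 | h1
      · exact ⟨k, by omega, Nat.eq_of_beq_eq_true h1⟩
      · obtain ⟨i, hi, hi2⟩ := ih h1
        exact ⟨i, by omega, hi2⟩
  exact key 65 h

theorem cd_smul (c : K16) (x : Vec) : cd (c • x) = smN c.code (cd x) := by
  apply vec_inj (cd_lt _) (smN_lt _ _)
  rw [vec_cd, vec_smN c.code_lt, of_code, vec_cd]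

theorem hf_smul_smul (c : K16) (x : Vec) : hf (c • x) (c • x) = c * c ^ 4 * hf x x := by
  rw [hf_def, hf_def]
  simp only [Pi.smul_apply, smul_eq_mul]
  ring

theorem iso_smul {c : K16} (hc : c ≠ 0) (x : Vec) : Iso (c • x) ↔ Iso x := by
  unfold Iso
  rw [hf_smul_smul, Ne, smul_eq_zero, mul_eq_zero]
  have h1 : ¬ (c * c ^ 4 = 0) := by
    rw [mul_eq_zero]
    rintro (h | h)
    · exact hc h
    · exact hc (pow_eq_zero_iff (by norm_num) |>.1 h)
  simp only [hc, h1, false_or]

theorem f0N_smul {c : K16} (hc : c ≠ 0) {x : Vec} (hx : Iso x) :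
    f0N (cd (c • x)) = f0N (cd x) := by
  have h1 := allB_spec _ _ chk1_true (cd x) (cd_lt x)
  rw [Bool.or_eq_true, Bool.not_eq_true', (iso_iff_code x).1 hx] at h1
  rcases h1 with h1 | h1
  · exact absurd h1 (by decide)
  · have hc0 : c.code ≠ 0 := by
      intro h
      apply hc
      rw [← of_code c, h]
      rfl
    have hc1 := c.code_lt
    have h2 := allB_spec _ _ h1 (c.code - 1) (by omega)
    have h3 : c.code - 1 + 1 = c.code := by omega
    have h4 := Nat.eq_of_beq_eq_true h2
    rw [h3] at h4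
    rw [cd_smul]
    exact h4

/-- every isotropic vector is a multiple of one of the list -/
theorem exists_PL {x : Vec} (hx : Iso x) : ∃ c : K16, c ≠ 0 ∧ ∃ i < 65, c • x = vec (pN i) := by
  have h1 := allB_spec _ _ chk2_true (cd x) (cd_lt x)
  rw [Bool.or_eq_true, Bool.not_eq_true', (iso_iff_code x).1 hx] at h1
  rcases h1 with h1 | h1
  · exact absurd h1 (by decide)
  · rw [Bool.and_eq_true, Bool.and_eq_true] at h1
    obtain ⟨⟨h2, h3⟩, h4⟩ := h1
    obtain ⟨i, hi, hi2⟩ := inPL_spec h2
    have h5 : ldN (cd x) < 16 := Nat.le_of_ble_eq_true h4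
    have h7 : ldN (cd x) ≠ 0 := by
      intro h
      rw [h] at h3
      exact absurd h3 (by decide)
    refine ⟨of (ldN (cd x)), fun h => h7 ((of_eq_zero h5).1 h), i, hi, ?_⟩
    rw [hi2, vec_smN h5, vec_cd]

theorem exists_PL' {x : Vec} (hx : Iso x) : ∃ c : K16, c ≠ 0 ∧ ∃ i < 65, x = c • vec (pN i) := by
  obtain ⟨c, hc, i, hi, h⟩ := exists_PL hx
  exact ⟨c⁻¹, inv_ne_zero hc, i, hi, by rw [← h, smul_smul, inv_mul_cancel₀ hc, one_smul]⟩

theorem pN_lt (i : ℕ) : pN i < 4096 := Nat.mod_lt _ (by norm_num)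

/-- the function on isotropic vectors -/
def f0 (x : Vec) : ZMod 5 := (f0N (cd x) : ZMod 5)

open Classical in
/-- the element -/
noncomputable def Phi0 : Vec → Vec → ZMod 5 := fun x y => if Iso x ∧ Iso y then f0 x - f0 y else 0

theorem phi0_of {x y : Vec} (hx : Iso x) (hy : Iso y) : Phi0 x y = f0 x - f0 y := if_pos ⟨hx, hy⟩

theorem phi0_zero {x y : Vec} (h : ¬ (Iso x ∧ Iso y)) : Phi0 x y = 0 := if_neg h

theorem phi0_smul {c : K16} (hc : c ≠ 0) (x z : Vec) : Phi0 (c • x) z = Phi0 x z := by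
  by_cases h : Iso x ∧ Iso z
  · rw [phi0_of h.1 h.2, phi0_of ((iso_smul hc x).2 h.1) h.2]
    unfold f0
    rw [f0N_smul hc h.1]
  · rw [phi0_zero h, phi0_zero (by rwa [iso_smul hc x])]

/-- the reduction of the sum over a line to codes -/
theorem sum_reduce (F : Vec → ZMod 5) (hF : ∀ (c : K16) x, c ≠ 0 → F (c • x) = F x)
    {a b : K16} (ha : a ≠ 0) (hb : b ≠ 0) (m n : ℕ) :
    F (a • vec m) + ∑ c : K16, F (b • vec n + c • (a • vec m)) =
      F (vec m) + ∑ i ∈ Finset.range 16, F (vec (n ^^^ smN i m)) := by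
  have h1 : ∀ c : K16, F (b • vec n + c • (a • vec m)) = F (vec n + (c * (a / b)) • vec m) := by
    intro c
    rw [← hF b (vec n + (c * (a / b)) • vec m) hb, smul_add, smul_smul, smul_smul]
    have : c * a = b * (c * (a / b)) := by field_simp
    rw [this]
  rw [hF a _ ha]
  rw [Finset.sum_congr rfl (fun c _ => h1 c)]
  have h2 : ∑ c : K16, F (vec n + (c * (a / b)) • vec m) = ∑ c : K16, F (vec n + c • vec m) :=
    Fintype.sum_equiv (Equiv.mulRight₀ (a / b) (div_ne_zero ha hb)) _ _ (fun c => rfl)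
  have h3 : ∑ c : K16, F (vec n + c • vec m) =
      ∑ i ∈ Finset.range 16, F (vec (n ^^^ smN i m)) := by
    rw [sum_K16]
    refine Finset.sum_congr rfl (fun i hi => ?_)
    rw [vec_xor, vec_smN (Finset.mem_range.1 hi)]
  rw [h2, h3]

theorem iso_vec {n : ℕ} (hn : n < 4096) : Iso (vec n) ↔ isoN n = true := (isoN_iff hn).symm

theorem xor_lt' {m n : ℕ} (hm : m < 4096) (hn : n < 4096) : m ^^^ n < 4096 :=
  Nat.xor_lt_two_pow (n := 12) hm hn

theorem phi0_sum {i j : ℕ} (hi : i < 65) (hj : j < 65) (hij : i ≠ j)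
    (hI : Iso (vec (pN i))) {z : Vec} (hz : Iso z) :
    Phi0 (vec (pN i)) z + ∑ c ∈ Finset.range 16, Phi0 (vec (pN j ^^^ smN c (pN i))) z = 0 := by
  have h1 := allB_spec _ _ (allB_spec _ _ chk3_true i hi) j hj
  rw [Bool.or_eq_true, Bool.and_eq_true] at h1
  rcases h1 with h1 | ⟨h1, h2⟩
  · exact absurd (Nat.eq_of_beq_eq_true h1) hij
  · have h3 := Nat.eq_of_beq_eq_true h1
    have h4 := Nat.eq_of_beq_eq_true h2
    set w : ℕ → ℕ := fun c => pN j ^^^ smN c (pN i) with hw
    have hwlt : ∀ c, w c < 4096 := fun c => xor_lt' (pN_lt _) (smN_lt _ _)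
    have hS : sumN (pN i) (pN j) =
        (∑ c ∈ Finset.range 16, (if isoN (w c) = true then 1 else 0)) +
        100 * ∑ c ∈ Finset.range 16, (if isoN (w c) = true then f0N (w c) else 0) := by
      unfold sumN
      rw [rs_eq, Finset.mul_sum, ← Finset.sum_add_distrib]
      refine Finset.sum_congr rfl (fun c _ => ?_)
      change sel (isoN (w c)) (1 + 100 * f0N (w c)) 0 = _
      cases h : isoN (w c) with
      | true => simp [sel]
      | false => simp [sel]
    set A := ∑ c ∈ Finset.range 16, (if isoN (w c) = true then 1 else 0) with hA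
    set B := ∑ c ∈ Finset.range 16, (if isoN (w c) = true then f0N (w c) else 0) with hB
    have hA16 : A ≤ 16 := by
      rw [hA]
      calc _ ≤ ∑ c ∈ Finset.range 16, 1 := Finset.sum_le_sum (fun c _ => by split_ifs <;> omega)
        _ = 16 := by simp
    have hA4 : A = 4 := by omega
    have hB' : (f0N (pN i) + B) % 5 = 0 := by
      have : sumN (pN i) (pN j) / 100 = B := by omega
      rw [this] at h4
      exact h4
    have e1 : ∀ c, Phi0 (vec (w c)) z =
        (if isoN (w c) = true then (f0N (w c) : ZMod 5) else 0) -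
          (if isoN (w c) = true then 1 else 0) * f0 z := by
      intro c
      by_cases h : isoN (w c) = true
      · rw [phi0_of ((iso_vec (hwlt c)).2 h) hz, if_pos h, if_pos h, one_mul]
        unfold f0
        rw [cd_vec (hwlt c)]
      · rw [phi0_zero (fun h' => h ((iso_vec (hwlt c)).1 h'.1)), if_neg h, if_neg h]
        ring
    rw [Finset.sum_congr rfl (fun c _ => e1 c), Finset.sum_sub_distrib, ← Finset.sum_mul,
      phi0_of hI hz]
    have e2 : (∑ c ∈ Finset.range 16, (if isoN (w c) = true then (f0N (w c) : ZMod 5) else 0)) =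
        (B : ZMod 5) := by
      rw [hB, Nat.cast_sum]
      refine Finset.sum_congr rfl (fun c _ => ?_)
      split_ifs <;> simp
    have e3 : (∑ c ∈ Finset.range 16, (if isoN (w c) = true then (1 : ZMod 5) else 0)) =
        (A : ZMod 5) := by
      rw [hA, Nat.cast_sum]
      refine Finset.sum_congr rfl (fun c _ => ?_)
      split_ifs <;> simp
    rw [e2, e3, hA4]
    have e4 : ((f0N (pN i) + B : ℕ) : ZMod 5) = 0 :=
      (ZMod.natCast_eq_zero_iff _ 5).2 (Nat.dvd_of_mod_eq_zero hB')
    have e5 : f0 (vec (pN i)) = (f0N (pN i) : ZMod 5) := by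
      unfold f0
      rw [cd_vec (pN_lt i)]
    rw [e5]
    push_cast at e4 ⊢
    have e6 : (5 : ZMod 5) = 0 := by decide
    linear_combination e4 - f0 z * e6

theorem hf_self_eq {x : Vec} (hx : Iso x) (a b : K16) : hf (a • x) (b • x) = 0 := by
  have h : hf (a • x) (b • x) = a * b ^ 4 * hf x x := by
    rw [hf_def, hf_def]
    simp only [Pi.smul_apply, smul_eq_mul]
    ring
  rw [h, hx.2, mul_zero]

theorem phi0_mem : Phi0 ∈ VM := by
  refine ⟨fun x y h => phi0_zero h, fun x y z hx hy hz => ?_, fun c x z hc => phi0_smul hc x z,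
    fun x y z hx hy hz hh => ?_⟩
  · rw [phi0_of hx hy, phi0_of hy hz, phi0_of hx hz]; ring
  · obtain ⟨a, ha, i, hi, rfl⟩ := exists_PL' hx
    obtain ⟨b, hb, j, hj, rfl⟩ := exists_PL' hy
    have hij : i ≠ j := by
      rintro rfl
      exact hh (hf_self_eq ((iso_smul ha _).1 hx) a b)
    rw [sum_reduce (fun x => Phi0 x z) (fun c x hc => phi0_smul hc x z) ha hb]
    exact phi0_sum hi hj hij ((iso_smul ha _).1 hx) hz

instance instNontriv : Nontrivial ↥VM := by
  refine ⟨⟨0, ⟨Phi0, phi0_mem⟩, fun h => ?_⟩⟩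
  have h1 : (0 : Vec → Vec → ZMod 5) = Phi0 := congrArg Subtype.val h
  have h2 : Phi0 (vec 865) (vec 272) = 0 := by rw [← h1]; rfl
  have i1 : Iso (vec 865) := (isoN_iff (by norm_num)).1 (by decide +kernel)
  have i2 : Iso (vec 272) := (isoN_iff (by norm_num)).1 (by decide +kernel)
  rw [phi0_of i1 i2] at h2
  unfold f0 at h2
  rw [cd_vec (by norm_num), cd_vec (by norm_num)] at h2
  revert h2
  decide +kernel

end Cfsg.Agent.H426.U34
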