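import Mathlib
import Cfsg.Agent.H426.U34Nt
import Cfsg.Agent.LieRecognition.PSUThreeSylow

/-!
# An element of order 13 of the 3-dimensional unitary group has no fixed vector on the module
-/

set_option autoImplicit false

namespace Cfsg.Agent.H426.U34

open K16

/-- the field automorphism -/
noncomputable def sig : K16 →+* K16 := iterateFrobenius K16 2 2

theorem sig_apply (x : K16) : sig x = x ^ 4 := by
  unfold sig
  rw [iterateFrobenius_def]
  norm_num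

/-- matrices from nine codes -/
def mat (a b c d e f g h i : ℕ) : Matrix (Fin 3) (Fin 3) K16 :=
  !![of a, of b, of c; of d, of e, of f; of g, of h, of i]

theorem mem_SU (g : Matrix.SpecialLinearGroup (Fin 3) K16)
    (h : ∀ i j : Fin 3, g.1 0 i * (g.1 0 j * g.1 0 j * (g.1 0 j * g.1 0 j)) +
      g.1 1 i * (g.1 1 j * g.1 1 j * (g.1 1 j * g.1 1 j)) +
      g.1 2 i * (g.1 2 j * g.1 2 j * (g.1 2 j * g.1 2 j)) = if i = j then 1 else 0) :
    g ∈ Cfsg.SU 3 K16 4 := by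
  rw [Cfsg.Agent.LieRecognition.PSUThreeSylow.mem_SU_iff sig_apply]
  ext i j
  rw [Matrix.mul_apply, Fin.sum_univ_three, Matrix.one_apply, ← h i j]
  simp only [Matrix.transpose_apply, Matrix.map_apply, sig_apply]
  ring

/-- the element of order 13 -/
def a13 : Matrix.SpecialLinearGroup (Fin 3) K16 :=
  ⟨mat 0 0 12 2 9 0 6 13 0, by rw [Matrix.det_fin_three]; decide +kernel⟩

/-- an element of order 10 -/
def a10 : Matrix.SpecialLinearGroup (Fin 3) K16 :=
  ⟨mat 0 8 0 8 0 0 0 0 10, by rw [Matrix.det_fin_three]; decide +kernel⟩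

/-- an element of order 15 -/
def a15 : Matrix.SpecialLinearGroup (Fin 3) K16 :=
  ⟨mat 3 6 0 14 11 0 0 0 10, by rw [Matrix.det_fin_three]; decide +kernel⟩

/-- the element of order 13 -/
def A13 : UG := ⟨a13, mem_SU _ (by decide +kernel)⟩
/-- an element of order 10 -/
def A10 : UG := ⟨a10, mem_SU _ (by decide +kernel)⟩
/-- an element of order 15 -/
def A15 : UG := ⟨a15, mem_SU _ (by decide +kernel)⟩

theorem UG_eq_one_iff (g : UG) : g = 1 ↔ g.1.1 = 1 := by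
  constructor
  · rintro rfl; rfl
  · intro h; exact Subtype.ext (Subtype.ext h)

theorem coe_pow (g : UG) (n : ℕ) : (g ^ n).1.1 = g.1.1 ^ n := by
  rw [Subgroup.coe_pow, Matrix.SpecialLinearGroup.coe_pow]

theorem A13_pow : A13 ^ 13 = 1 := by
  rw [UG_eq_one_iff, coe_pow]
  have h2 : A13.1.1 * A13.1.1 = mat 14 3 0 1 13 11 9 15 14 := by decide +kernel
  have h3 : mat 14 3 0 1 13 11 9 15 14 * A13.1.1 = mat 6 8 4 6 9 12 15 4 6 := by decide +kernel
  have h6 : mat 6 8 4 6 9 12 15 4 6 * mat 6 8 4 6 9 12 15 4 6 = mat 11 2 10 12 13 3 11 8 11 := by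
    decide +kernel
  have h12 : mat 11 2 10 12 13 3 11 8 11 * mat 11 2 10 12 13 3 11 8 11 =
    mat 0 3 6 0 14 11 10 0 0 := by decide +kernel
  have h13 : mat 0 3 6 0 14 11 10 0 0 * A13.1.1 = 1 := by decide +kernel
  have e : A13.1.1 ^ 13 = (((A13.1.1 * A13.1.1) * A13.1.1) * ((A13.1.1 * A13.1.1) * A13.1.1)) *
    (((A13.1.1 * A13.1.1) * A13.1.1) * ((A13.1.1 * A13.1.1) * A13.1.1)) * A13.1.1 := by
    noncomm_ring
  rw [e, h2, h3, h6, h12, h13]

theorem orderOf_A13 : orderOf A13 = 13 := by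
  have : Fact (Nat.Prime 13) := ⟨by norm_num⟩
  refine orderOf_eq_prime A13_pow (fun h => ?_)
  rw [UG_eq_one_iff] at h
  revert h
  decide +kernel

theorem orderOf_A10 : orderOf A10 = 10 := by
  have h2 : A10.1.1 * A10.1.1 = mat 12 0 0 0 12 0 0 0 8 := by decide +kernel
  have h4 : mat 12 0 0 0 12 0 0 0 8 * mat 12 0 0 0 12 0 0 0 8 * A10.1.1 =
    mat 0 1 0 1 0 0 0 0 1 := by decide +kernel
  have h10 : mat 0 1 0 1 0 0 0 0 1 * mat 0 1 0 1 0 0 0 0 1 = 1 := by decide +kernel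
  have e5 : A10.1.1 ^ 5 = mat 0 1 0 1 0 0 0 0 1 := by
    rw [← h4, ← h2]
    noncomm_ring
  refine orderOf_eq_of_pow_and_pow_div_prime (by norm_num) ?_ ?_
  · rw [UG_eq_one_iff, coe_pow, ← h10, ← e5, ← pow_add]
  · intro p hp hd
    have h1 : p ∣ 2 * 5 := hd
    rcases (Nat.Prime.dvd_mul hp).1 h1 with h | h
    · rw [(Nat.prime_dvd_prime_iff_eq hp Nat.prime_two).1 h, Ne, UG_eq_one_iff, coe_pow]
      norm_num
      rw [e5]
      decide +kernel
    · rw [(Nat.prime_dvd_prime_iff_eq hp Nat.prime_five).1 h, Ne, UG_eq_one_iff, coe_pow]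
      norm_num
      rw [sq, h2]
      decide +kernel

theorem orderOf_A15 : orderOf A15 = 15 := by
  have h2 : A15.1.1 * A15.1.1 = mat 7 5 0 9 11 0 0 0 8 := by decide +kernel
  have h3 : mat 7 5 0 9 11 0 0 0 8 * A15.1.1 = mat 10 0 0 0 10 0 0 0 15 := by decide +kernel
  have h5 : mat 10 0 0 0 10 0 0 0 15 * mat 7 5 0 9 11 0 0 0 8 =
    mat 3 4 0 5 2 0 0 0 1 := by decide +kernel
  have h15 : mat 3 4 0 5 2 0 0 0 1 * mat 3 4 0 5 2 0 0 0 1 * mat 3 4 0 5 2 0 0 0 1 = 1 := by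
    decide +kernel
  have e3 : A15.1.1 ^ 3 = mat 10 0 0 0 10 0 0 0 15 := by
    rw [← h3, ← h2]
    noncomm_ring
  have e5 : A15.1.1 ^ 5 = mat 3 4 0 5 2 0 0 0 1 := by
    rw [← h5, ← e3, ← h2]
    noncomm_ring
  refine orderOf_eq_of_pow_and_pow_div_prime (by norm_num) ?_ ?_
  · rw [UG_eq_one_iff, coe_pow, ← h15, ← e5, ← pow_add, ← pow_add]
  · intro p hp hd
    have h1 : p ∣ 3 * 5 := hd
    rcases (Nat.Prime.dvd_mul hp).1 h1 with h | h
    · rw [(Nat.prime_dvd_prime_iff_eq hp Nat.prime_three).1 h, Ne, UG_eq_one_iff, coe_pow]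
      norm_num
      rw [e5]
      decide +kernel
    · rw [(Nat.prime_dvd_prime_iff_eq hp Nat.prime_five).1 h, Ne, UG_eq_one_iff, coe_pow]
      norm_num
      rw [e3]
      decide +kernel

/-- the action of the element of order 13 on codes -/
def aN (n : ℕ) : ℕ := mulN 12 (n / 256 % 16) + 16 * ((mulN 2 (n % 16) ^^^ mulN 9 (n / 16 % 16)) % 16) +
  256 * ((mulN 6 (n % 16) ^^^ mulN 13 (n / 16 % 16)) % 16)

theorem of_mulN {c : ℕ} (hc : c < 16) (a : ℕ) : of (mulN c (a % 16)) = of c * of a := by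
  rw [← of_mul, Nat.mod_eq_of_lt hc]

theorem aN_lt (n : ℕ) : aN n < 4096 := by
  have h0 := mulN_lt 12 (n / 256 % 16)
  unfold aN
  omega

theorem vec_aN (n : ℕ) : vec (aN n) = mv A13 (vec n) := by
  have h0 := mulN_lt 12 (n / 256 % 16)
  have e0 : aN n % 16 = mulN 12 (n / 256 % 16) := by unfold aN; omega
  have e1 : aN n / 16 % 16 = (mulN 2 (n % 16) ^^^ mulN 9 (n / 16 % 16)) % 16 := by
    unfold aN; omega
  have e2 : aN n / 256 % 16 = (mulN 6 (n % 16) ^^^ mulN 13 (n / 16 % 16)) % 16 := by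
    unfold aN; omega
  have k : ∀ i : Fin 3, mv A13 (vec n) i = A13.1.1 i 0 * of n + A13.1.1 i 1 * of (n / 16) +
      A13.1.1 i 2 * of (n / 256) := by
    intro i
    unfold mv
    rw [Matrix.mulVec, dotProduct, Fin.sum_univ_three]
    rfl
  funext i
  rw [k]
  fin_cases i
  · change of (aN n) = of 0 * of n + of 0 * of (n / 16) + of 12 * of (n / 256)
    rw [← of_mod, e0, of_mulN (by norm_num)]
    change _ = 0 * of n + 0 * of (n / 16) + _
    rw [zero_mul, zero_mul, zero_add, zero_add]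
  · change of (aN n / 16) = of 2 * of n + of 9 * of (n / 16) + of 0 * of (n / 256)
    rw [← of_mod, e1, of_mod, of_xor, of_mulN (by norm_num), of_mulN (by norm_num)]
    change _ = _ + 0 * of (n / 256)
    rw [zero_mul, add_zero]
  · change of (aN n / 256) = of 6 * of n + of 13 * of (n / 16) + of 0 * of (n / 256)
    rw [← of_mod, e2, of_mod, of_xor, of_mulN (by norm_num), of_mulN (by norm_num)]
    change _ = _ + 0 * of (n / 256)
    rw [zero_mul, add_zero]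

/-- normalization -/
def nrmN (n : ℕ) : ℕ := smN (ldN n) n

/-- the index in the list -/
def idxN (n : ℕ) : ℕ := Nat.rec 0 (fun k ih => sel ((pN k).beq n) k ih) 65

theorem chk4 : allB (fun i => isoN (aN (pN i)) && isoN (pN i) &&
    (nrmN (aN (pN i))).beq (pN ((i + 5) % 65))) 65 = true := by
  decide +kernel

/-- the counting of orbits on a line -/
def cntN (b j : ℕ) : ℕ :=
  rs (fun c => sel (isoN (pN b ^^^ smN c (pN 0)) &&
    (idxN (nrmN (pN b ^^^ smN c (pN 0))) % 5).beq j) 1 0) 16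

theorem chk5 : allB (fun b => allB (fun c => !(isoN (pN b ^^^ smN c (pN 0))) ||
    ((pN (idxN (nrmN (pN b ^^^ smN c (pN 0))))).beq (nrmN (pN b ^^^ smN c (pN 0))) &&
    Nat.blt (idxN (nrmN (pN b ^^^ smN c (pN 0)))) 65)) 16) 6 = true := by
  decide +kernel

theorem cnt1 : cntN 1 0 = 1 ∧ cntN 1 1 = 2 ∧ cntN 1 2 = 1 ∧ cntN 1 3 = 0 ∧ cntN 1 4 = 0 := by
  decide +kernel
theorem cnt3 : cntN 3 0 = 1 ∧ cntN 3 1 = 1 ∧ cntN 3 2 = 0 ∧ cntN 3 3 = 2 ∧ cntN 3 4 = 0 := by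
  decide +kernel
theorem cnt4 : cntN 4 0 = 1 ∧ cntN 4 1 = 0 ∧ cntN 4 2 = 1 ∧ cntN 4 3 = 0 ∧ cntN 4 4 = 2 := by
  decide +kernel
theorem cnt5 : cntN 5 0 = 1 ∧ cntN 5 1 = 0 ∧ cntN 5 2 = 2 ∧ cntN 5 3 = 0 ∧ cntN 5 4 = 1 := by
  decide +kernel
theorem hN_ne : (hN (pN 0) (pN 1)).beq 0 = false ∧ (hN (pN 0) (pN 3)).beq 0 = false ∧
    (hN (pN 0) (pN 4)).beq 0 = false ∧ (hN (pN 0) (pN 5)).beq 0 = false := by
  decide +kernel

theorem solve5 : ∀ a b c d e : ZMod 5, 2 * a + 2 * b + c = 0 → 2 * a + b + 2 * d = 0 →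
    2 * a + c + 2 * e = 0 → 2 * a + 2 * c + e = 0 → b = a ∧ c = a ∧ d = a ∧ e = a := by
  decide +kernel

theorem nrm_spec {n : ℕ} (hn : n < 4096) (h : isoN n = true) :
    ∃ c : K16, c ≠ 0 ∧ vec (nrmN n) = c • vec n := by
  have h1 := allB_spec _ _ chk2_true n hn
  rw [Bool.or_eq_true, Bool.not_eq_true', h] at h1
  rcases h1 with h1 | h1
  · exact absurd h1 (by decide)
  · rw [Bool.and_eq_true, Bool.and_eq_true] at h1
    obtain ⟨⟨h2, h3⟩, h4⟩ := h1
    have h5 : ldN n < 16 := Nat.le_of_ble_eq_true h4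
    have h7 : ldN n ≠ 0 := by
      intro h
      rw [h] at h3
      exact absurd h3 (by decide)
    exact ⟨of (ldN n), fun h => h7 ((of_eq_zero h5).1 h), vec_smN h5 n⟩

section

variable {Φ : ↥VM}

theorem fixed_apply (hΦ : A13 • Φ = Φ) (x y : Vec) : Φ.1 (mv A13 x) (mv A13 y) = Φ.1 x y := by
  have h := smul_apply A13 Φ (mv A13 x) (mv A13 y)
  rw [hΦ, mv_inv_mv, mv_inv_mv] at h
  exact h

theorem self_zero (Φ : ↥VM) {x : Vec} (hx : Iso x) : Φ.1 x x = 0 := by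
  have h := Φ.2.2.1 x x x hx hx hx
  exact add_eq_left.1 h

theorem orbit_zero (hΦ : A13 • Φ = Φ) {x : Vec} (hx : Iso x) : Φ.1 (mv A13 x) x = 0 := by
  have key : ∀ k : ℕ, Φ.1 (mv (A13 ^ k) x) x = (k : ZMod 5) * Φ.1 (mv A13 x) x := by
    intro k
    induction k with
    | zero => rw [pow_zero, mv_one, self_zero Φ hx]; simp
    | succ k ih =>
      have h1 : mv (A13 ^ (k + 1)) x = mv A13 (mv (A13 ^ k) x) := by
        rw [pow_succ', mv_mul]
      have h2 := Φ.2.2.1 (mv (A13 ^ (k + 1)) x) (mv A13 x) x ((iso_mv _ _).2 hx)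
        ((iso_mv _ _).2 hx) hx
      rw [← h2, h1, fixed_apply hΦ, ih]
      push_cast
      ring
  have h := key 13
  rw [A13_pow, mv_one, self_zero Φ hx] at h
  have h13 : ∀ c : ZMod 5, 0 = ((13 : ℕ) : ZMod 5) * c → c = 0 := by decide
  exact h13 _ h

theorem orbit_const (hΦ : A13 • Φ = Φ) {x z : Vec} (hx : Iso x) (hz : Iso z) :
    Φ.1 (mv A13 x) z = Φ.1 x z := by
  rw [← Φ.2.2.1 (mv A13 x) x z ((iso_mv _ _).2 hx) hx hz, orbit_zero hΦ hx, zero_add]

theorem iso_pN {i : ℕ} (hi : i < 65) : Iso (vec (pN i)) := by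
  have h := allB_spec _ _ chk4 i hi
  rw [Bool.and_eq_true, Bool.and_eq_true] at h
  exact (iso_vec (pN_lt i)).2 h.1.2

theorem step (hΦ : A13 • Φ = Φ) {z : Vec} (hz : Iso z) {i : ℕ} (hi : i < 65) :
    Φ.1 (vec (pN ((i + 5) % 65))) z = Φ.1 (vec (pN i)) z := by
  have h := allB_spec _ _ chk4 i hi
  rw [Bool.and_eq_true, Bool.and_eq_true] at h
  obtain ⟨⟨h1, h2⟩, h3⟩ := h
  rw [← Nat.eq_of_beq_eq_true h3]
  obtain ⟨c, hc, hc2⟩ := nrm_spec (aN_lt (pN i)) h1
  rw [hc2, Φ.2.2.2.1 c _ _ hc, vec_aN, orbit_const hΦ (iso_pN hi) hz]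

theorem mod_five (hΦ : A13 • Φ = Φ) {z : Vec} (hz : Iso z) (i : ℕ) (hi : i < 65) :
    Φ.1 (vec (pN i)) z = Φ.1 (vec (pN (i % 5))) z := by
  induction i using Nat.strong_induction_on with
  | _ i ih =>
    rcases Nat.lt_or_ge i 5 with h | h
    · rw [Nat.mod_eq_of_lt h]
    · have h1 := step hΦ hz (i := i - 5) (by omega)
      have h2 : (i - 5 + 5) % 65 = i := by omega
      rw [h2] at h1
      have h3 : (i - 5) % 5 = i % 5 := by omega
      rw [h1, ih (i - 5) (by omega) (by omega), h3]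

theorem count_sum (w : ℕ → ℕ) (p : ℕ → Bool) (t : ℕ → ℕ) (ht : ∀ n, t n < 5)
    (u : ℕ → ZMod 5) :
    ∑ j ∈ Finset.range 5, ((rs (fun c => sel (p (w c) && (t (w c)).beq j) 1 0) 16 : ℕ) : ZMod 5) *
      u j = ∑ c ∈ Finset.range 16, (if p (w c) = true then u (t (w c)) else 0) := by
  have e1 : ∀ j, ((rs (fun c => sel (p (w c) && (t (w c)).beq j) 1 0) 16 : ℕ) : ZMod 5) =
      ∑ c ∈ Finset.range 16, (if p (w c) = true ∧ t (w c) = j then (1 : ZMod 5) else 0) := by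
    intro j
    rw [rs_eq, Nat.cast_sum]
    refine Finset.sum_congr rfl (fun c _ => ?_)
    by_cases h : p (w c) = true ∧ t (w c) = j
    · rw [if_pos h, h.1, h.2, Bool.true_and, Nat.beq_refl, sel_true, Nat.cast_one]
    · rw [if_neg h]
      have : (p (w c) && (t (w c)).beq j) = false := by
        by_contra h'
        rw [Bool.not_eq_false, Bool.and_eq_true] at h'
        exact h ⟨h'.1, Nat.eq_of_beq_eq_true h'.2⟩
      rw [this, sel_false, Nat.cast_zero]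
  simp only [e1, Finset.sum_mul]
  rw [Finset.sum_comm]
  refine Finset.sum_congr rfl (fun c hc => ?_)
  by_cases h : p (w c) = true
  · rw [if_pos h, Finset.sum_eq_single (t (w c))]
    · rw [if_pos ⟨h, rfl⟩, one_mul]
    · intro j _ hj
      rw [if_neg (fun h' => hj h'.2.symm), zero_mul]
    · intro hj
      exact absurd (Finset.mem_range.2 (ht _)) hj
  · rw [if_neg h]
    refine Finset.sum_eq_zero (fun j _ => ?_)
    rw [if_neg (fun h' => h h'.1), zero_mul]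

theorem term_eq (hΦ : A13 • Φ = Φ) {z : Vec} (hz : Iso z) {w : ℕ} (hw : w < 4096)
    (hc : (!(isoN w) || ((pN (idxN (nrmN w))).beq (nrmN w) && Nat.blt (idxN (nrmN w)) 65)) = true) :
    Φ.1 (vec w) z = if isoN w = true then Φ.1 (vec (pN (idxN (nrmN w) % 5))) z else 0 := by
  by_cases h : isoN w = true
  · rw [if_pos h]
    rw [Bool.or_eq_true, Bool.not_eq_true', h, Bool.and_eq_true] at hc
    rcases hc with h5 | ⟨h5, h6⟩
    · exact absurd h5 (by decide)
    · have h7 := Nat.eq_of_beq_eq_true h5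
      have h8 : idxN (nrmN w) < 65 := Nat.le_of_ble_eq_true h6
      obtain ⟨d, hd, hd2⟩ := nrm_spec hw h
      rw [← mod_five hΦ hz _ h8, h7, hd2, Φ.2.2.2.1 d _ _ hd]
  · rw [if_neg h]
    exact Φ.2.1 _ _ (fun h' => h ((iso_vec hw).1 h'.1))

theorem line_eq (hΦ : A13 • Φ = Φ) {z : Vec} (hz : Iso z) {b : ℕ} (hb : b < 6)
    (hh : (hN (pN 0) (pN b)).beq 0 = false) :
    Φ.1 (vec (pN 0)) z + ∑ j ∈ Finset.range 5, (cntN b j : ZMod 5) * Φ.1 (vec (pN j)) z = 0 := by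
  have h0 : hf (vec (pN 0)) (vec (pN b)) ≠ 0 := by
    intro h
    rw [(hN_eq_zero (pN 0) (pN b)).2 h] at hh
    exact Bool.false_ne_true hh.symm
  have h1 := Φ.2.2.2.2 (vec (pN 0)) (vec (pN b)) z (iso_pN (by norm_num)) (iso_pN (by omega)) hz h0
  have e : ∑ c : K16, Φ.1 (vec (pN b) + c • vec (pN 0)) z =
      ∑ c ∈ Finset.range 16, Φ.1 (vec (pN b ^^^ smN c (pN 0))) z := by
    rw [sum_K16]
    refine Finset.sum_congr rfl (fun i hi => ?_)
    rw [vec_xor, vec_smN (Finset.mem_range.1 hi)]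
  have e2 : ∑ c ∈ Finset.range 16, Φ.1 (vec (pN b ^^^ smN c (pN 0))) z =
      ∑ c ∈ Finset.range 16, (if isoN (pN b ^^^ smN c (pN 0)) = true then
        Φ.1 (vec (pN (idxN (nrmN (pN b ^^^ smN c (pN 0))) % 5))) z else 0) := by
    refine Finset.sum_congr rfl (fun c hc => ?_)
    exact term_eq hΦ hz (xor_lt' (pN_lt b) (smN_lt c (pN 0)))
      (allB_spec _ _ (allB_spec _ _ chk5 b hb) c (Finset.mem_range.1 hc))
  rw [e, e2] at h1
  have e3 : ∑ j ∈ Finset.range 5, (cntN b j : ZMod 5) * Φ.1 (vec (pN j)) z =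
      ∑ c ∈ Finset.range 16, (if isoN (pN b ^^^ smN c (pN 0)) = true then
        Φ.1 (vec (pN (idxN (nrmN (pN b ^^^ smN c (pN 0))) % 5))) z else 0) :=
    count_sum (fun c => pN b ^^^ smN c (pN 0)) isoN (fun n => idxN (nrmN n) % 5)
      (fun n => Nat.mod_lt _ (by norm_num)) (fun j => Φ.1 (vec (pN j)) z)
  rw [e3, h1]

theorem fixed_zero (hΦ : A13 • Φ = Φ) : Φ = 0 := by
  apply ext_VM
  have key : ∀ z, Iso z → ∀ x, Iso x → Φ.1 x z = Φ.1 (vec (pN 0)) z := by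
    intro z hz
    obtain ⟨n1, n3, n4, n5⟩ := hN_ne
    have e1 := line_eq hΦ hz (b := 1) (by norm_num) n1
    have e3 := line_eq hΦ hz (b := 3) (by norm_num) n3
    have e4 := line_eq hΦ hz (b := 4) (by norm_num) n4
    have e5 := line_eq hΦ hz (b := 5) (by norm_num) n5
    obtain ⟨a0, a1, a2, a3, a4⟩ := cnt1
    obtain ⟨b0, b1, b2, b3, b4⟩ := cnt3
    obtain ⟨c0, c1, c2, c3, c4⟩ := cnt4
    obtain ⟨d0, d1, d2, d3, d4⟩ := cnt5
    rw [Finset.sum_range_succ, Finset.sum_range_succ, Finset.sum_range_succ,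
      Finset.sum_range_succ, Finset.sum_range_one] at e1 e3 e4 e5
    rw [a0, a1, a2, a3, a4] at e1
    rw [b0, b1, b2, b3, b4] at e3
    rw [c0, c1, c2, c3, c4] at e4
    rw [d0, d1, d2, d3, d4] at e5
    push_cast at e1 e3 e4 e5
    obtain ⟨s1, s2, s3, s4⟩ := solve5 (Φ.1 (vec (pN 0)) z) (Φ.1 (vec (pN 1)) z)
      (Φ.1 (vec (pN 2)) z) (Φ.1 (vec (pN 3)) z) (Φ.1 (vec (pN 4)) z)
      (by linear_combination e1) (by linear_combination e3) (by linear_combination e4)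
      (by linear_combination e5)
    intro x hx
    obtain ⟨c, hc, i, hi, rfl⟩ := exists_PL' hx
    rw [Φ.2.2.2.1 c _ _ hc, mod_five hΦ hz i hi]
    have h5 : i % 5 < 5 := Nat.mod_lt _ (by norm_num)
    generalize i % 5 = j at h5
    interval_cases j
    · rfl
    · exact s1
    · exact s2
    · exact s3
    · exact s4
  intro x y hx hy
  rw [key y hy x hx, ← key y hy y hy, self_zero Φ hy]

end

end Cfsg.Agent.H426.U34
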