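import Mathlib
import Cfsg.Agent.H426.U34Fix
import Cfsg.Agent.H426.ConjPrime
import Cfsg.Agent.H426.Unrec
import Cfsg.Agent.S0280

/-!
# Groups of unbounded order with the prime graph of `PSU₃(4)`
-/

set_option autoImplicit false

namespace Cfsg.Agent.H426.U34

open K16

theorem card_K16' : Fintype.card K16 = 4 ^ 2 := K16.card_K16

theorem card_UG : Nat.card UG = 62400 := by
  have h := Cfsg.Agent.S0278.result card_K16' 3 (by norm_num)
  have h0 : Even 0 := by decide
  have h1 : ¬ Even 1 := by decide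
  have h2 : Even 2 := by decide
  rw [Finset.prod_range_succ, Finset.prod_range_succ, Finset.prod_range_succ,
    Finset.prod_range_zero, if_pos h0, if_neg h1, if_pos h2] at h
  norm_num at h
  have h3 : 5 * Nat.card UG = 312000 := h
  omega

instance instFin : Finite UG := inferInstance

instance instFinVM : Finite ↥VM := inferInstance

theorem prime_cases {r : ℕ} (hr : r.Prime) (h : r ∣ 62400) : r = 2 ∨ r = 3 ∨ r = 5 ∨ r = 13 := by
  have h1 : r ∣ 2 ^ 6 * (3 * (5 ^ 2 * 13)) := by
    have : (62400 : ℕ) = 2 ^ 6 * (3 * (5 ^ 2 * 13)) := by norm_num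
    rwa [this] at h
  rcases (Nat.Prime.dvd_mul hr).1 h1 with h | h
  · exact Or.inl ((Nat.prime_dvd_prime_iff_eq hr Nat.prime_two).1 (hr.dvd_of_dvd_pow h))
  · rcases (Nat.Prime.dvd_mul hr).1 h with h | h
    · exact Or.inr (Or.inl ((Nat.prime_dvd_prime_iff_eq hr Nat.prime_three).1 h))
    · rcases (Nat.Prime.dvd_mul hr).1 h with h | h
      · exact Or.inr (Or.inr (Or.inl
          ((Nat.prime_dvd_prime_iff_eq hr Nat.prime_five).1 (hr.dvd_of_dvd_pow h))))
      · exact Or.inr (Or.inr (Or.inr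
          ((Nat.prime_dvd_prime_iff_eq hr (by norm_num)).1 h)))

theorem no_fixed {g : UG} (hg : orderOf g = 13) {Φ : ↥VM} (h : g • Φ = Φ) : Φ = 0 := by
  obtain ⟨b, k, hb⟩ := conj_of_orderOf_eq_prime (p := 13) (m := 4800) (by norm_num) (by norm_num)
    (by rw [card_UG]) hg orderOf_A13
  have hk : ∀ k : ℕ, g ^ k • Φ = Φ := by
    intro k
    induction k with
    | zero => rw [pow_zero, one_smul]
    | succ k ih => rw [pow_succ, mul_smul, h, ih]
  have h1 : A13 • (b • Φ) = b • Φ := by
    rw [hb, mul_smul, mul_smul, inv_smul_smul, hk]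
  have h2 : b • Φ = 0 := fixed_zero h1
  have h3 : b⁻¹ • (b • Φ) = 0 := by rw [h2, smul_zero]
  rwa [inv_smul_smul] at h3

theorem exists_large_UG (N : ℕ) :
    ∃ (K : Type) (_ : Group K) (_ : Finite K), N < Nat.card K ∧
      ((∀ q : ℕ, q.Prime → (q ∣ Nat.card UG ↔ q ∣ Nat.card K)) ∧
      (∀ q r : ℕ, q.Prime → r.Prime → q ≠ r →
        ((∃ g : UG, orderOf g = q * r) ↔ (∃ g : K, orderOf g = q * r)))) := by
  refine Cfsg.Agent.H426.exists_large_same_primeGraph (G := UG) (V := ↥VM) (p := 5)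
    (by norm_num) five_nsmul (by rw [card_UG]; norm_num) ?_ N
  intro r hr hr5 g v hg hv hgv
  have h1 : r ∣ 62400 := by
    rw [← card_UG, ← hg]
    exact orderOf_dvd_natCard g
  rcases prime_cases hr h1 with h | h | h | h
  · exact ⟨A10, by rw [orderOf_A10, h]⟩
  · exact ⟨A15, by rw [orderOf_A15, h]⟩
  · exact absurd h hr5
  · exact absurd (no_fixed (hg.trans h) hgv) hv

/-- the quotient by the trivial centre -/
theorem psu_equiv : Nonempty (Cfsg.PSU 3 K16 4 ≃* UG) := by
  have h1 := Cfsg.Agent.S0280.card_center card_K16' 3 (by norm_num)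
  have h2 : Subgroup.center UG = ⊥ := by
    apply Subgroup.eq_bot_of_card_eq
    rw [h1]
    norm_num
  exact ⟨(QuotientGroup.quotientMulEquivOfEq h2).trans QuotientGroup.quotientBot⟩

end Cfsg.Agent.H426.U34
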